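import Mathlib

/-! Numerical lemmas for the characterization of the Suzuki groups by a self-centralization
system. -/

set_option autoImplicit false

namespace CL.SCS

theorem num_five {p q x a δ : ℤ} (hp : 9 ≤ p) (hs : 22 ≤ p + q) (hx : 0 < x) (hd : p ∣ x)
    (ha : |a| * p ≤ x) (hδ : δ = 1 ∨ δ = -1) (h5 : 5 ∣ x - δ)
    (hpc : (2 * 5 + (p + q) - 4) * (x - a) ^ 2 < 4 * 5 * (x * (x + δ))) : False := by
  have h1 := Int.le_of_dvd hx hd
  have h2 : 9 * a ≤ x := by nlinarith [le_abs_self a, abs_nonneg a]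
  have h3 : 28 * (x - a) ^ 2 ≤ (2 * 5 + (p + q) - 4) * (x - a) ^ 2 :=
    mul_le_mul_of_nonneg_right (by omega) (sq_nonneg _)
  have h4 : (8 * x) ^ 2 ≤ (9 * (x - a)) ^ 2 := pow_le_pow_left₀ (by omega) (by omega) 2
  rcases hδ with rfl | rfl
  · have : 11 ≤ x := by omega
    nlinarith
  · nlinarith

theorem num_trace {n x a δ : ℤ} (hn : 5 ≤ n) (hδ : δ = 1 ∨ δ = -1) (hd : 0 < x - a)
    (hdv : x - a ∣ x * (x + δ)) (col : 2 + 2 * a ^ 2 + (n - 1) * (a + δ) ^ 2 ≤ 2 * (x - a)) :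
    a = 0 ∨ a = -δ := by
  by_contra hne
  push Not at hne
  have h1 : x - a ∣ a * (a + δ) := by
    have := dvd_sub hdv (dvd_mul_right (x - a) (x + a + δ))
    rwa [show x * (x + δ) - (x - a) * (x + a + δ) = a * (a + δ) by ring] at this
  have h2 := Int.le_of_dvd (abs_pos.2 (mul_ne_zero hne.1 (by omega))) ((dvd_abs _ _).2 h1)
  have h3 : 4 * (a + δ) ^ 2 ≤ (n - 1) * (a + δ) ^ 2 :=
    mul_le_mul_of_nonneg_right (by omega) (sq_nonneg _)
  rcases abs_cases (a * (a + δ)) with e | e <;> nlinarith [sq_nonneg (a + (a + δ)), sq_nonneg δ]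

/-- the case `s > 1`, `χ(t) ≠ 0` -/
theorem num_big_ne {n x a δ s j : ℤ} (hn : 5 ≤ n) (hδ : δ = 1 ∨ δ = -1) (hx : 116 ≤ x)
    (hs : 2 ≤ s) (hj : s ^ 2 = 1 + j * n) (hj3 : j ≤ 3) (hd : 0 < x - a) (hdv : x - a ∣ x * s)
    (ha : a ≠ 0) (hnx : n ∣ x - δ) (col : 2 + 2 * a ^ 2 + (n - 1) * (a + δ) ^ 2 ≤ 2 * (s * (x - a)))
    (tr : |a| * n ≤ x + (n - 1) * δ) : False := by
  have h1 : x - a ∣ a * s := by
    have := dvd_sub hdv (dvd_mul_right (x - a) s)
    rwa [show x * s - (x - a) * s = a * s by ring] at this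
  have h2 := Int.le_of_dvd (abs_pos.2 (mul_ne_zero ha (by omega))) ((dvd_abs _ _).2 h1)
  rw [abs_mul, abs_of_pos (by omega : 0 < s)] at h2
  have a1 : 1 ≤ |a| := abs_pos.2 ha
  have a2 := le_abs_self a
  have a3 : a ^ 2 = |a| ^ 2 := (sq_abs a).symm
  have a4 : (|a| - 1) ^ 2 ≤ (a + δ) ^ 2 := by
    rcases hδ with rfl | rfl <;> rcases abs_cases a with e | e <;> nlinarith
  generalize |a| = α at *
  have h3 : s ^ 2 ≤ 1 + 3 * n := by nlinarith
  have h4 : s * (x - a) ≤ α * (1 + 3 * n) := by nlinarith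
  have h5 : (n - 1) * (α - 1) ^ 2 ≤ (n - 1) * (a + δ) ^ 2 :=
    mul_le_mul_of_nonneg_left a4 (by omega)
  have h6 : (n + 1) * (α ^ 2 + 1) ≤ 8 * n * α := by nlinarith
  have h7 : α ≤ 7 := by
    by_contra h; push Not at h
    have : 8 * α ≤ α ^ 2 := by nlinarith
    nlinarith
  have h8 : x ≤ α * (s + 1) := by nlinarith
  have h9 : 16 ≤ s := by nlinarith
  obtain ⟨κ, hκ⟩ := hnx
  have k1 : 1 ≤ κ := by
    by_contra h; push Not at h
    have : n * κ ≤ 0 := by nlinarith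
    omega
  have k2 : κ = 1 := by
    by_contra h
    have : 2 * n ≤ n * κ := by nlinarith [show 2 ≤ κ by omega]
    have : α * (s + 1) ≤ 7 * (s + 1) := mul_le_mul_of_nonneg_right h7 (by omega)
    have : 2 * n ≤ 7 * (s + 1) + 1 := by omega
    nlinarith
  subst k2
  have : α ≤ 2 := by
    rcases hδ with rfl | rfl <;> nlinarith
  have : α * (s + 1) ≤ 2 * (s + 1) := mul_le_mul_of_nonneg_right this (by omega)
  have : n ≤ 2 * s + 3 := by omega
  nlinarith

/-- the case `s > 1`, `χ(t) = 0` -/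
theorem num_big_zero {n p q s j : ℤ} (hn : 5 ≤ n) (hno : Odd n) (hp : 9 ≤ p) (hq : 9 ≤ q)
    (hp4 : p % 4 = 1) (hq4 : q % 4 = 1) (hs : 22 ≤ p + q) (hj : s ^ 2 = 1 + j * n) (hj1 : 1 ≤ j)
    (hj3 : j ≤ 3) (hnx : n ∣ p * q - 2) (hco : IsCoprime (p * q) n)
    (hdv : p * q ∣ n * s ^ 2 * (p + q) + 4)
    (hpc : (2 * n + (p + q) - 4) * (p * q - 1) ^ 2 < 4 * n * ((p * q - 1) * (p * q))) : False := by
  obtain ⟨κ, hκ⟩ := hnx
  obtain ⟨σ, hσ⟩ : ∃ σ, p + q = 2 * σ := ⟨(p + q) / 2, by omega⟩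
  have hP : 18 * σ - 81 ≤ p * q := by nlinarith
  have hP' : p * q < σ ^ 2 + 1 := by nlinarith [sq_nonneg (p - q)]
  have Podd : p * q % 2 = 1 := by
    rw [Int.mul_emod, show p % 2 = 1 by omega, show q % 2 = 1 by omega]; rfl
  have h1 : p * q ∣ (s ^ 2 * (2 * σ) - 2 * κ) * n := by
    have := dvd_sub hdv (dvd_mul_right (p * q) 2)
    rwa [show n * s ^ 2 * (p + q) + 4 - p * q * 2 = (s ^ 2 * (2 * σ) - 2 * κ) * n by
      rw [hσ]; linear_combination -2 * hκ] at this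
  obtain ⟨i, hi⟩ := hco.dvd_of_dvd_mul_right h1
  have hfin : ∀ r : ℤ, r ∣ κ → r ∣ 2 * σ → r ∣ p ^ 2 + 2 := fun r h1 h2 => by
    have := dvd_sub (dvd_mul_of_dvd_right h2 p) (dvd_mul_of_dvd_right h1 n)
    rwa [← hσ, ← hκ, show p * (p + q) - (p * q - 2) = p ^ 2 + 2 by ring] at this
  have hpq : q = 2 * σ - p := by omega
  generalize hPP : p * q = P at *
  obtain ⟨i0, rfl⟩ : ∃ i0, i = 2 * i0 := by
    refine ⟨i / 2, ?_⟩
    have : P * i % 2 = 0 := by
      rw [← hi, show s ^ 2 * (2 * σ) - 2 * κ = 2 * (s ^ 2 * σ - κ) by ring]; omega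
    rw [Int.mul_emod, Podd] at this
    omega
  have κodd : κ % 2 = 1 := by
    obtain ⟨k, rfl⟩ := hno
    have : (2 * k + 1) * κ = 2 * (k * κ) + κ := by ring
    omega
  have k1 : 1 ≤ κ := by
    by_contra h; push Not at h
    have : n * κ ≤ 0 := by nlinarith
    omega
  have hw : σ - κ - 2 * i0 = n * (i0 * κ - j * σ) := by
    have : 2 * (σ - κ - 2 * i0) = 2 * (n * (i0 * κ - j * σ)) := by
      linear_combination hi - 2 * σ * hj + 2 * i0 * hκ
    omega
  obtain ⟨w, hwd⟩ : ∃ w, i0 * κ - j * σ = w := ⟨_, rfl⟩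
  rw [hwd] at hw
  have weven : w % 2 = 0 := by
    obtain ⟨k, rfl⟩ := hno
    have : (2 * k + 1) * w = 2 * (k * w) + w := by ring
    omega
  have hσn : σ ≤ n + 3 := by
    rw [hσ] at hpc
    have h2 : (2 * n + 2 * σ - 4) * (P - 1) < 4 * n * P :=
      lt_of_mul_lt_mul_right (a := P - 1) (by nlinarith) (by omega)
    have : n ≤ n * κ := by nlinarith
    by_contra h; push Not at h
    nlinarith
  have jσ : 0 < j * σ := mul_pos (by omega) (by omega)
  rcases lt_trichotomy w 0 with h | rfl | h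
  · have h2 : n * w ≤ n * (-2) := mul_le_mul_of_nonneg_left (by omega) (by omega)
    have h3 : κ ≤ σ + 4 := by
      by_contra h'; push Not at h'
      have : n * (σ + 5) ≤ n * κ := mul_le_mul_of_nonneg_left (by omega) (by omega)
      nlinarith
    have h4 : (n - 2) * κ ≤ i0 * κ := mul_le_mul_of_nonneg_right (by omega) (by omega)
    have h5 : j * σ ≤ 3 * σ := mul_le_mul_of_nonneg_right hj3 (by omega)
    nlinarith
  · obtain rfl : σ = κ + 2 * i0 := by omega
    have h2 : (i0 - j) * (κ - 2 * j) = 2 * j ^ 2 := by linear_combination hwd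
    have h3 : j < i0 := by
      by_contra h'; push Not at h'
      have i1 : 0 < i0 := by
        by_contra h''; push Not at h''
        nlinarith
      nlinarith [mul_pos i1 (show 0 < j by omega)]
    have h4 : 2 * j < κ := by
      by_contra h'; push Not at h'
      nlinarith
    have h5 : κ - 2 * j ≤ 18 := by nlinarith
    have h6 : κ ≤ 24 := by omega
    have h7 : i0 - j ≤ 18 := by nlinarith
    have h8 : i0 ≤ 21 := by omega
    have five : ¬ (5 : ℤ) ∣ p ^ 2 + 2 := fun e => by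
      have : p % 5 = 0 ∨ p % 5 = 1 ∨ p % 5 = 2 ∨ p % 5 = 3 ∨ p % 5 = 4 := by omega
      have e' := Int.emod_eq_zero_of_dvd e
      rcases this with h | h | h | h | h <;> simp [pow_two, Int.add_emod, Int.mul_emod, h] at e'
    have seven : ¬ (7 : ℤ) ∣ p ^ 2 + 2 := fun e => by
      have : p % 7 = 0 ∨ p % 7 = 1 ∨ p % 7 = 2 ∨ p % 7 = 3 ∨ p % 7 = 4 ∨ p % 7 = 5 ∨ p % 7 = 6 := by
        omega
      have e' := Int.emod_eq_zero_of_dvd e
      rcases this with h | h | h | h | h | h | h <;>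
        simp [pow_two, Int.add_emod, Int.mul_emod, h] at e'
    have cases : (κ = 5 ∧ i0 = 10) ∨ (κ = 7 ∧ i0 = 21) ∨ (κ = 15 ∧ i0 = 5) ∨
        (κ = 9 ∧ i0 = 9 ∧ j = 3) := by
      interval_cases j <;> interval_cases κ <;> omega
    rcases cases with ⟨rfl, rfl⟩ | ⟨rfl, rfl⟩ | ⟨rfl, rfl⟩ | ⟨rfl, rfl, rfl⟩
    · exact five (hfin 5 (by norm_num) (by norm_num))
    · exact seven (hfin 7 (by norm_num) (by norm_num))
    · exact five (hfin 5 (by norm_num) (by norm_num))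
    · subst hpq
      have : p ≤ 45 := by omega
      have hn59 : n = 59 := by interval_cases p <;> omega
      subst hn59
      have : |s| ≤ 13 ∨ 14 ≤ |s| := by omega
      rcases this with h | h <;> nlinarith [sq_abs s, abs_nonneg s]
  · have h2 : n * 2 ≤ n * w := mul_le_mul_of_nonneg_left (by omega) (by omega)
    have h3 : 0 < i0 := by
      by_contra h'; push Not at h'
      nlinarith
    omega

/-- the case `s = 1`, `δ = -1` -/
theorem num_neg {n p q y i κ : ℤ} (hp : 9 ≤ p) (hpq : p < q) (hy : y % 4 = 3) (hy0 : 0 < y)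
    (hi : 0 ≤ i) (h1 : p + q + 4 ≤ 2 * n) (h2 : 2 * n ≤ p + q + 4 + 4 * i)
    (h3 : y * (p + q) = 4 * i * (p * q) + 2 * κ) (h4 : κ * n = p * q * y + 2)
    (h5 : y ^ 2 < 3 * n) : False := by
  have P0 : 0 < p * q * y := mul_pos (mul_pos (by omega) (by omega)) hy0
  have k0 : 0 < κ := by
    by_contra h; push Not at h
    nlinarith
  rcases hi.eq_or_lt with rfl | hi
  · have : y ∣ 4 := ⟨(p + q) * n - 2 * (p * q), by linear_combination -n * h3 - 2 * h4⟩
    have := Int.le_of_dvd (by norm_num) this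
    have : y = 3 := by omega
    subst this
    omega
  have ip : 0 < i * p := mul_pos hi (by omega)
  have s1 : 2 * (i * p) < y := by
    by_contra h; push Not at h
    nlinarith
  have s2 : 18 * i < y := by nlinarith
  have s3 : 5 * y ^ 2 < 9 * (p + q) := by nlinarith
  have s4 : 2 * p < y := by nlinarith
  obtain ⟨z, hz⟩ : ∃ z, y = z + 4 * (i * p) := ⟨y - 4 * (i * p), by ring⟩
  have e : 2 * κ = z * (p + q) + 4 * i * p ^ 2 := by rw [hz] at h3; linear_combination -h3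
  rcases (by omega : 3 ≤ z ∨ z ≤ -1) with h | h
  · have a1 : 3 * (p + q) + 4 ≤ 2 * κ := by nlinarith
    have a2 : 2 * (p * y) ≤ y ^ 2 := by nlinarith
    have a3 : 2 * (p * q * y) ≤ q * y ^ 2 := by nlinarith
    have a4 : q * y ^ 2 ≤ q * (3 * n) := by nlinarith
    nlinarith
  · have a1 : p + q < 4 * i * p ^ 2 := by nlinarith
    have a2 : 20 * p < p + q := by nlinarith
    have a3 : 19 * (i * p) < 5 * y := by
      by_contra h'; push Not at h'
      nlinarith
    have a4 : (19 * (i * p)) ^ 2 < (5 * y) ^ 2 := by nlinarith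
    have a5 : i * p ^ 2 ≤ (i * p) ^ 2 := by nlinarith [sq_nonneg p]
    nlinarith

end CL.SCS
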